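import Cfsg.Agent.SmallSimple.SylowInter

/-!
# Self-centralizing elementary abelian TI Sylow 3-subgroups of order 9 (helper435)

`Hyp M`: the Sylow 3-subgroup `M` has order 9, exponent 3, `C(M) = M` and `C(g) ≤ N(M)` for `1 ≠ g ∈ M`.
* `card_cent`: `|C(g)| = 9` or `18` for `1 ≠ g ∈ M`, in general for each element of order 3 (`dvd_cent`);
* `card_le`: `|N(M)| ≤ 144`;
* `modEq`: `|G : N(M)| ≡ 1 mod 9`.
-/

set_option autoImplicit false

namespace Cfsg.Agent.H435.Nine

open Subgroup

/-- the hypotheses -/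
structure Hyp {G : Type*} [Group G] [Finite G] (M : Sylow 3 G) : Prop where
  nine : Nat.card ↥(M : Subgroup G) = 9
  el : ∀ m ∈ (M : Subgroup G), m ^ 3 = 1
  self : centralizer ((M : Subgroup G) : Set G) = (M : Subgroup G)
  cent : ∀ g ∈ (M : Subgroup G), g ≠ 1 → centralizer ({g} : Set G) ≤ normalizer ((M : Subgroup G) : Set G)

namespace Hyp

variable {G : Type*} [Group G] [Finite G] {M : Sylow 3 G} (H : Hyp M)

include H

theorem comm {a b : G} (ha : a ∈ (M : Subgroup G)) (hb : b ∈ (M : Subgroup G)) : a * b = b * a := by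
  rw [← H.self] at hb
  exact mem_centralizer_iff.1 hb a ha

theorem orderOf_eq {g : G} (hg : g ∈ (M : Subgroup G)) (hg1 : g ≠ 1) : orderOf g = 3 :=
  orderOf_eq_prime (H.el g hg) hg1

theorem exists_notMem {g : G} (hg : g ∈ (M : Subgroup G)) (hg1 : g ≠ 1) : ∃ h ∈ (M : Subgroup G), h ∉ zpowers g := by
  by_contra hc
  push Not at hc
  have h1 : (M : Subgroup G) ≤ zpowers g := hc
  have h2 := card_le_of_le h1
  rw [H.nine, Nat.card_zpowers, H.orderOf_eq hg hg1] at h2
  omega

theorem mem_of_sq {g h : G} (hh : h ∈ (M : Subgroup G)) (h2 : h ^ 2 ∈ zpowers g) : h ∈ zpowers g := by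
  have h3 : h = (h ^ 2) ^ 2 := by
    rw [← pow_mul, show 2 * 2 = 3 + 1 by norm_num, pow_add, H.el h hh, one_mul, pow_one]
  rw [h3]
  exact pow_mem h2 2

theorem pow_eq {g h : G} (hh : h ∈ (M : Subgroup G)) (hhg : h ∉ zpowers g) {j k : ℕ} (hj : j < 3) (hk : k < 3)
    (hjk : j < k) : h ^ j * (h ^ k)⁻¹ ∉ zpowers g := by
  intro hc
  have h1 : h ^ (k - j) ∈ zpowers g := by
    have h2 := inv_mem hc
    rw [mul_inv_rev, inv_inv] at h2
    rwa [pow_sub h hjk.le]
  have : k - j = 1 ∨ k - j = 2 := by omega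
  rcases this with h2 | h2
  · rw [h2, pow_one] at h1
    exact hhg h1
  · rw [h2] at h1
    exact hhg (H.mem_of_sq hh h1)

/-- every element of `M` is `g ^ i * h ^ j` -/
theorem exists_pow {g h : G} (hg : g ∈ (M : Subgroup G)) (hg1 : g ≠ 1) (hh : h ∈ (M : Subgroup G))
    (hhg : h ∉ zpowers g) {x : G} (hx : x ∈ (M : Subgroup G)) : ∃ i j : ℕ, j < 3 ∧ x = g ^ i * h ^ j := by
  let f : Fin 3 × Fin 3 → ↥(M : Subgroup G) := fun p =>
    ⟨g ^ (p.1 : ℕ) * h ^ (p.2 : ℕ), mul_mem (pow_mem hg _) (pow_mem hh _)⟩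
  have hinj : Function.Injective f := by
    rintro ⟨i, j⟩ ⟨i', j'⟩ he
    have he' : g ^ (i : ℕ) * h ^ (j : ℕ) = g ^ (i' : ℕ) * h ^ (j' : ℕ) := congrArg Subtype.val he
    have h1 : h ^ (j : ℕ) * (h ^ (j' : ℕ))⁻¹ = (g ^ (i : ℕ))⁻¹ * g ^ (i' : ℕ) := by
      rw [mul_inv_eq_iff_eq_mul, mul_assoc, ← he', inv_mul_cancel_left]
    have h2 : h ^ (j : ℕ) * (h ^ (j' : ℕ))⁻¹ ∈ zpowers g := by
      rw [h1]
      exact mul_mem (inv_mem (pow_mem (mem_zpowers g) _)) (pow_mem (mem_zpowers g) _)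
    have hj : (j : ℕ) = j' := by
      rcases lt_trichotomy (j : ℕ) j' with h3 | h3 | h3
      · exact absurd h2 (H.pow_eq hh hhg j.2 j'.2 h3)
      · exact h3
      · refine absurd ?_ (H.pow_eq hh hhg j'.2 j.2 h3)
        have := inv_mem h2
        rwa [mul_inv_rev, inv_inv] at this
    rw [hj] at he'
    have hi : g ^ (i : ℕ) = g ^ (i' : ℕ) := mul_right_cancel he'
    have hi' : (i : ℕ) = i' := by
      apply pow_injOn_Iio_orderOf _ _ hi
      · rw [H.orderOf_eq hg hg1]; exact i.2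
      · rw [H.orderOf_eq hg hg1]; exact i'.2
    exact Prod.ext (Fin.ext hi') (Fin.ext hj)
  have hbij : Function.Bijective f :=
    (Nat.bijective_iff_injective_and_card f).2 ⟨hinj, by simp [H.nine]⟩
  obtain ⟨⟨i, j⟩, hij⟩ := hbij.2 ⟨x, hx⟩
  exact ⟨i, j, j.2, (congrArg Subtype.val hij).symm⟩

omit H in
omit [Finite G] in
theorem mem_of_pow {c : G} (hc : c ∈ normalizer ((M : Subgroup G) : Set G)) {k : ℕ} (h : c ^ 3 ^ k = 1) :
    c ∈ (M : Subgroup G) := by
  have h1 : IsPGroup 3 (zpowers c) := by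
    intro x
    obtain ⟨n, hn⟩ := mem_zpowers_iff.1 x.2
    refine ⟨k, ?_⟩
    apply Subtype.ext
    rw [SubmonoidClass.coe_pow, ← hn, ← zpow_natCast, ← zpow_mul, mul_comm, zpow_mul, zpow_natCast, h, one_zpow]
    rfl
  have h2 := (h1.inf_normalizer_sylow M).le (mem_inf.2 ⟨mem_zpowers c, hc⟩)
  exact (mem_inf.1 h2).2

/-- the block lemma -/
theorem mem_of_block {g h : G} (hg : g ∈ (M : Subgroup G)) (hg1 : g ≠ 1) (hh : h ∈ (M : Subgroup G))
    (hhg : h ∉ zpowers g) {c : G} (hc : c * g = g * c) {i : ℕ} (h1 : c * h * c⁻¹ = g ^ i * h) :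
    c ∈ (M : Subgroup G) := by
  have hcN : c ∈ normalizer ((M : Subgroup G) : Set G) :=
    H.cent g hg hg1 (mem_centralizer_singleton_iff.2 hc)
  have e1 : c * h = g ^ i * h * c := by rw [← h1, inv_mul_cancel_right]
  have e2 : c * g ^ i = g ^ i * c := (show Commute c g from hc).pow_right i
  have e3 : c ^ 3 * h = h * c ^ 3 := by
    have hc3 : c ^ 3 * h = g ^ i * g ^ i * g ^ i * h * c ^ 3 := by
      have s1 : c ^ 2 * h = g ^ i * g ^ i * h * c ^ 2 := by
        calc c ^ 2 * h = c * (c * h) := by rw [pow_two, mul_assoc]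
          _ = c * g ^ i * h * c := by rw [e1]; simp only [mul_assoc]
          _ = g ^ i * (c * h) * c := by rw [e2]; simp only [mul_assoc]
          _ = g ^ i * g ^ i * h * c ^ 2 := by rw [e1, pow_two]; simp only [mul_assoc]
      have e2' : c * (g ^ i * g ^ i) = g ^ i * g ^ i * c := by
        rw [← mul_assoc, e2, mul_assoc, e2, mul_assoc]
      calc c ^ 3 * h = c * (c ^ 2 * h) := by rw [pow_succ' c 2, mul_assoc]
        _ = c * (g ^ i * g ^ i) * h * c ^ 2 := by rw [s1]; simp only [mul_assoc]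
        _ = g ^ i * g ^ i * (c * h) * c ^ 2 := by rw [e2']; simp only [mul_assoc]
        _ = g ^ i * g ^ i * g ^ i * h * c ^ 3 := by rw [e1, pow_succ' c 2]; simp only [mul_assoc]
    have hgi : g ^ i * g ^ i * g ^ i = 1 := by
      rw [← pow_add, ← pow_add, show i + i + i = 3 * i by ring, pow_mul, H.el g hg, one_pow]
    rw [hc3, hgi, one_mul]
  have e4 : c ^ 3 * g = g * c ^ 3 := (show Commute c g from hc).pow_left 3
  have h3 : c ^ 3 ∈ (M : Subgroup G) := by
    rw [← H.self, mem_centralizer_iff]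
    intro x hx
    obtain ⟨a, b, -, rfl⟩ := H.exists_pow hg hg1 hh hhg hx
    have f1 : Commute (c ^ 3) (g ^ a) := (show Commute (c ^ 3) g from e4).pow_right a
    have f2 : Commute (c ^ 3) (h ^ b) := (show Commute (c ^ 3) h from e3).pow_right b
    exact (f1.mul_right f2).symm
  apply mem_of_pow hcN (k := 2)
  rw [show 3 ^ 2 = 3 * 3 by norm_num, pow_mul]
  exact H.el _ h3

/-- `|C(g) : M| ≤ 2` -/
theorem relIndex {g : G} (hg : g ∈ (M : Subgroup G)) (hg1 : g ≠ 1) :
    (M : Subgroup G).relIndex (centralizer ({g} : Set G)) = 1 ∨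
      (M : Subgroup G).relIndex (centralizer ({g} : Set G)) = 2 := by
  by_cases hle : centralizer ({g} : Set G) ≤ (M : Subgroup G)
  · exact Or.inl (relIndex_eq_one.2 hle)
  right
  obtain ⟨h, hh, hhg⟩ := H.exists_notMem hg hg1
  have key : ∀ c : G, c * g = g * c → c ∉ (M : Subgroup G) → ∃ i : ℕ, c * h * c⁻¹ = g ^ i * h ^ 2 := by
    intro c hc hcM
    have hcN : c ∈ normalizer ((M : Subgroup G) : Set G) :=
      H.cent g hg hg1 (mem_centralizer_singleton_iff.2 hc)
    have h1 : c * h * c⁻¹ ∈ (M : Subgroup G) := (mem_normalizer_iff.1 hcN h).1 hh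
    obtain ⟨i, j, hj, hij⟩ := H.exists_pow hg hg1 hh hhg h1
    interval_cases j
    · exfalso
      rw [pow_zero, mul_one] at hij
      apply hhg
      have : h = g ^ i := by
        have e2 : c * g ^ i = g ^ i * c := (show Commute c g from hc).pow_right i
        have e3 : c * h = c * g ^ i := by
          rw [e2, ← hij, inv_mul_cancel_right]
        exact mul_left_cancel e3
      rw [this]
      exact pow_mem (mem_zpowers g) _
    · exfalso
      rw [pow_one] at hij
      exact hcM (H.mem_of_block hg hg1 hh hhg hc hij)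
    · exact ⟨i, hij⟩
  rw [relIndex_eq_two_iff_exists_notMem_and]
  obtain ⟨a, haC, haM⟩ := SetLike.not_le_iff_exists.1 hle
  refine ⟨a, haC, haM, ?_⟩
  intro b hbC
  by_cases hbM : b ∈ (M : Subgroup G)
  · exact Or.inr hbM
  left
  rw [mem_centralizer_singleton_iff] at haC hbC
  obtain ⟨i, hi⟩ := key a haC haM
  obtain ⟨j, hj⟩ := key b hbC hbM
  have hab : b * a * g = g * (b * a) := by rw [mul_assoc, haC, ← mul_assoc, hbC, mul_assoc]
  have hbg : b * g ^ i = g ^ i * b := (show Commute b g from hbC).pow_right i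
  have hcomm : h * g ^ j = g ^ j * h := H.comm hh (pow_mem hg j)
  have hh3 : h * h * h = 1 := by have := H.el h hh; rwa [pow_succ, pow_two] at this
  apply H.mem_of_block hg hg1 hh hhg hab (i := i + 2 * j)
  calc b * a * h * (b * a)⁻¹ = b * (a * h * a⁻¹) * b⁻¹ := by rw [mul_inv_rev]; simp only [mul_assoc]
    _ = b * g ^ i * h ^ 2 * b⁻¹ := by rw [hi]; simp only [mul_assoc]
    _ = g ^ i * (b * h * b⁻¹) * (b * h * b⁻¹) := by rw [hbg, pow_two]; group
    _ = g ^ i * (g ^ j * h ^ 2) * (g ^ j * h ^ 2) := by rw [hj]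
    _ = g ^ (i + 2 * j) * h := by
      have c1 : h ^ 2 * g ^ j = g ^ j * h ^ 2 := H.comm (pow_mem hh 2) (pow_mem hg j)
      have c2 : h ^ 2 * h ^ 2 = h := by
        rw [← pow_add, show 2 + 2 = 3 + 1 by norm_num, pow_add, H.el h hh, one_mul, pow_one]
      calc g ^ i * (g ^ j * h ^ 2) * (g ^ j * h ^ 2) = g ^ i * g ^ j * (h ^ 2 * g ^ j) * h ^ 2 := by
            simp only [mul_assoc]
        _ = g ^ i * g ^ j * g ^ j * (h ^ 2 * h ^ 2) := by rw [c1]; simp only [mul_assoc]
        _ = g ^ (i + 2 * j) * h := by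
            rw [c2, show i + 2 * j = i + j + j by ring, pow_add, pow_add]

theorem le_cent {g : G} (hg : g ∈ (M : Subgroup G)) : (M : Subgroup G) ≤ centralizer ({g} : Set G) := by
  intro x hx
  rw [mem_centralizer_singleton_iff]
  exact H.comm hx hg

/-- `|C(g)| = 9` or `18` -/
theorem card_cent {g : G} (hg : g ∈ (M : Subgroup G)) (hg1 : g ≠ 1) :
    Nat.card (centralizer ({g} : Set G)) = 9 ∨ Nat.card (centralizer ({g} : Set G)) = 18 := by
  have h1 := relIndex_mul_relIndex ⊥ (M : Subgroup G) (centralizer ({g} : Set G)) bot_le (H.le_cent hg)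
  rw [relIndex_bot_left, relIndex_bot_left] at h1
  rcases H.relIndex hg hg1 with h | h
  · left; rw [← h1, H.nine, h]
  · right; rw [← h1, H.nine, h]

omit H in
/-- each element of order 3 is conjugate to an element of `M` -/
theorem exists_conj {x : G} (hx : orderOf x = 3) :
    ∃ g : G, g * x * g⁻¹ ∈ (M : Subgroup G) ∧ g * x * g⁻¹ ≠ 1 := by
  have hp : IsPGroup 3 (zpowers x) := by
    apply IsPGroup.of_card (n := 1)
    rw [Nat.card_zpowers, hx, pow_one]
  obtain ⟨P, hP⟩ := hp.exists_le_sylow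
  obtain ⟨g, hg⟩ := MulAction.exists_smul_eq G P M
  refine ⟨g, ?_, ?_⟩
  · rw [← hg]
    rw [Sylow.coe_subgroup_smul]
    exact Subgroup.smul_mem_pointwise_smul _ (MulAut.conj g) _ (hP (mem_zpowers x))
  · intro h
    have : x = 1 := by
      have h2 : x = g⁻¹ * (g * x * g⁻¹) * g := by group
      rw [h2, h, mul_one, inv_mul_cancel]
    rw [this, orderOf_one] at hx
    omega

omit H in
omit [Finite G] in
theorem card_cent_conj (x g : G) :
    Nat.card (centralizer ({g * x * g⁻¹} : Set G)) = Nat.card (centralizer ({x} : Set G)) := by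
  have h : centralizer ({g * x * g⁻¹} : Set G) = (centralizer ({x} : Set G)).map (MulAut.conj g).toMonoidHom := by
    ext y
    rw [mem_map_equiv, mem_centralizer_singleton_iff, mem_centralizer_singleton_iff]
    have h1 : (MulAut.conj g).symm y = g⁻¹ * y * g := by simp
    rw [h1]
    constructor
    · intro h
      calc g⁻¹ * y * g * x = g⁻¹ * (y * (g * x * g⁻¹)) * g := by group
        _ = g⁻¹ * (g * x * g⁻¹ * y) * g := by rw [h]
        _ = x * (g⁻¹ * y * g) := by group
    · intro h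
      calc y * (g * x * g⁻¹) = g * (g⁻¹ * y * g * x) * g⁻¹ := by group
        _ = g * (x * (g⁻¹ * y * g)) * g⁻¹ := by rw [h]
        _ = g * x * g⁻¹ * y := by group
  rw [h]
  exact Nat.card_congr ((centralizer ({x} : Set G)).equivMapOfInjective _
    (MulAut.conj g).injective).toEquiv.symm

/-- `|C(x)| = 9` or `18` for each element `x` of order 3 -/
theorem card_cent' {x : G} (hx : orderOf x = 3) :
    Nat.card (centralizer ({x} : Set G)) = 9 ∨ Nat.card (centralizer ({x} : Set G)) = 18 := by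
  obtain ⟨g, h1, h2⟩ := exists_conj (M := M) hx
  rw [← card_cent_conj x g]
  exact H.card_cent h1 h2

theorem dvd_cent {x : G} (hx : orderOf x = 3) : Nat.card (centralizer ({x} : Set G)) ∣ 18 := by
  rcases H.card_cent' hx with h | h <;> rw [h]
  norm_num

/-- an element commuting with an element of order 3 has order dividing 18 -/
theorem orderOf_dvd {x y : G} (hx : orderOf x = 3) (hxy : y * x = x * y) : orderOf y ∣ 18 := by
  have h1 : zpowers y ≤ centralizer ({x} : Set G) := by
    rw [zpowers_le, mem_centralizer_singleton_iff]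
    exact hxy
  have h2 := (card_dvd_of_le h1).trans (H.dvd_cent hx)
  rwa [Nat.card_zpowers] at h2

theorem card_dvd {x : G} (hx : orderOf x = 3) {V : Subgroup G} (hV : ∀ y ∈ V, y * x = x * y) : Nat.card V ∣ 18 := by
  have h1 : V ≤ centralizer ({x} : Set G) := fun y hy => mem_centralizer_singleton_iff.2 (hV y hy)
  exact (card_dvd_of_le h1).trans (H.dvd_cent hx)

/-- `M` is TI -/
theorem ti {R : Sylow 3 G} (hR : M ≠ R) : Nat.card ((M : Subgroup G) ⊓ (R : Subgroup G) : Subgroup G) = 1 := by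
  by_contra hne
  have : Nontrivial ↥((M : Subgroup G) ⊓ (R : Subgroup G)) := by
    rw [← Finite.one_lt_card_iff_nontrivial]
    have : 0 < Nat.card ↥((M : Subgroup G) ⊓ (R : Subgroup G)) := Nat.card_pos
    omega
  obtain ⟨⟨g, hg⟩, hg1⟩ := exists_ne (1 : ↥((M : Subgroup G) ⊓ (R : Subgroup G)))
  rw [mem_inf] at hg
  have hg1' : g ≠ 1 := fun h => hg1 (Subtype.ext h)
  have hR9 : Nat.card ↥(R : Subgroup G) = 9 := by
    rw [← H.nine]
    exact Nat.card_congr (Sylow.equiv R M).toEquiv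
  have hRc : ∀ a b : ↥(R : Subgroup G), a * b = b * a := by
    intro a b
    let e := Sylow.equiv R M
    apply e.injective
    rw [map_mul, map_mul]
    exact Subtype.ext (H.comm (e a).2 (e b).2)
  have h1 : (R : Subgroup G) ≤ normalizer ((M : Subgroup G) : Set G) := by
    intro r hr
    apply H.cent g hg.1 hg1'
    rw [mem_centralizer_singleton_iff]
    exact congrArg Subtype.val (hRc ⟨r, hr⟩ ⟨g, hg.2⟩)
  have h2 : (R : Subgroup G) ⊓ normalizer ((M : Subgroup G) : Set G) = (R : Subgroup G) ⊓ (M : Subgroup G) :=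
    R.isPGroup'.inf_normalizer_sylow M
  rw [inf_eq_left.2 h1] at h2
  have h3 : (R : Subgroup G) ≤ (M : Subgroup G) := by
    rw [h2]; exact inf_le_right
  have h4 : (R : Subgroup G) = (M : Subgroup G) :=
    Subgroup.eq_of_le_of_card_ge h3 (by rw [hR9, H.nine])
  exact hR (Sylow.ext h4.symm)

/-- `|G : N(M)| ≡ 1 mod 9` -/
theorem modEq : (normalizer ((M : Subgroup G) : Set G)).index % 9 = 1 := by
  have h0 : Nat.card (Sylow 3 G) = (normalizer ((M : Subgroup G) : Set G)).index :=
    Sylow.card_eq_index_normalizer M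
  rw [← h0]
  by_contra hc
  have hne : ¬ Nat.card (Sylow 3 G) ≡ 1 [MOD 3 ^ 2] := fun h => hc h
  obtain ⟨R, hR, h2⟩ := SmallSimple.SylowInter.exists_ne_card_le 3 2 hne M
  rw [H.ti hR, H.nine] at h2
  omega

theorem card_ne : Nat.card {x : ↥(M : Subgroup G) // x ≠ 1} = 8 := by
  have h := H.nine
  have : Fintype ↥(M : Subgroup G) := Fintype.ofFinite _
  classical
  rw [Nat.card_eq_fintype_card] at h ⊢
  rw [Fintype.card_subtype_compl, h]
  simp

omit H in
omit [Finite G] in
theorem exists_inj {g : G} (hg : g ∈ (M : Subgroup G)) (hg1 : g ≠ 1) :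
    ∃ F : ↥(normalizer ((M : Subgroup G) : Set G)) ⧸
      (centralizer ({g} : Set G)).subgroupOf (normalizer ((M : Subgroup G) : Set G)) →
      {x : ↥(M : Subgroup G) // x ≠ 1}, Function.Injective F ∧
      ∀ n : ↥(normalizer ((M : Subgroup G) : Set G)), ((F (QuotientGroup.mk n)).1 : G) = n * g * (n : G)⁻¹ := by
  let f : ↥(normalizer ((M : Subgroup G) : Set G)) → {x : ↥(M : Subgroup G) // x ≠ 1} := fun n =>
    ⟨⟨(n : G) * g * (n : G)⁻¹, (mem_normalizer_iff.1 n.2 g).1 hg⟩, fun h => hg1 (by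
      have h1 : (n : G) * g * (n : G)⁻¹ = 1 := congrArg Subtype.val h
      have h2 : g = (n : G)⁻¹ * ((n : G) * g * (n : G)⁻¹) * n := by group
      rw [h2, h1, mul_one, inv_mul_cancel])⟩
  have hf : ∀ a b, f a = f b ↔ a⁻¹ * b ∈ (centralizer ({g} : Set G)).subgroupOf (normalizer ((M : Subgroup G) : Set G)) := by
    intro a b
    rw [mem_subgroupOf, mem_centralizer_singleton_iff]
    constructor
    · intro h
      have h1 : (a : G) * g * (a : G)⁻¹ = (b : G) * g * (b : G)⁻¹ := congrArg (fun x => ((x.1 : ↥(M : Subgroup G)) : G)) h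
      change (a : G)⁻¹ * b * g = g * ((a : G)⁻¹ * b)
      calc (a : G)⁻¹ * b * g = (a : G)⁻¹ * (b * g * (b : G)⁻¹) * b := by group
        _ = (a : G)⁻¹ * (a * g * (a : G)⁻¹) * b := by rw [h1]
        _ = g * ((a : G)⁻¹ * b) := by group
    · intro h
      change (a : G)⁻¹ * b * g = g * ((a : G)⁻¹ * b) at h
      apply Subtype.ext
      apply Subtype.ext
      change (a : G) * g * (a : G)⁻¹ = (b : G) * g * (b : G)⁻¹
      calc (a : G) * g * (a : G)⁻¹ = a * (g * ((a : G)⁻¹ * b)) * (b : G)⁻¹ := by group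
        _ = a * ((a : G)⁻¹ * b * g) * (b : G)⁻¹ := by rw [h]
        _ = (b : G) * g * (b : G)⁻¹ := by group
  let F : ↥(normalizer ((M : Subgroup G) : Set G)) ⧸
      (centralizer ({g} : Set G)).subgroupOf (normalizer ((M : Subgroup G) : Set G)) →
      {x : ↥(M : Subgroup G) // x ≠ 1} := Quotient.lift f fun a b hab =>
        (hf a b).2 (QuotientGroup.leftRel_apply.1 hab)
  have hF : Function.Injective F := by
    intro x y
    induction x using QuotientGroup.induction_on
    induction y using QuotientGroup.induction_on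
    intro h
    exact QuotientGroup.eq.2 ((hf _ _).1 h)
  exact ⟨F, hF, fun n => rfl⟩

/-- the centralizer of `g ∈ M#` has index at most 8 in `N(M)` -/
theorem relIndex_le {g : G} (hg : g ∈ (M : Subgroup G)) (hg1 : g ≠ 1) :
    (centralizer ({g} : Set G)).relIndex (normalizer ((M : Subgroup G) : Set G)) ≤ 8 := by
  obtain ⟨F, hF, -⟩ := exists_inj hg hg1
  have h1 := Nat.card_le_card_of_injective F hF
  rw [H.card_ne] at h1
  exact h1

/-- if the index is 8 then all elements of `M#` are conjugate to `g` under `N(M)` -/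
theorem conj_of_eight {g : G} (hg : g ∈ (M : Subgroup G)) (hg1 : g ≠ 1)
    (h8 : (centralizer ({g} : Set G)).relIndex (normalizer ((M : Subgroup G) : Set G)) = 8)
    {x : G} (hx : x ∈ (M : Subgroup G)) (hx1 : x ≠ 1) : ∃ n : G, n * g * n⁻¹ = x := by
  obtain ⟨F, hF, hF2⟩ := exists_inj hg hg1
  have hbij : Function.Bijective F :=
    (Nat.bijective_iff_injective_and_card F).2 ⟨hF, by rw [H.card_ne]; exact h8⟩
  obtain ⟨y, hy⟩ := hbij.2 ⟨⟨x, hx⟩, fun h => hx1 (congrArg Subtype.val h)⟩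
  induction y using QuotientGroup.induction_on with
  | H n =>
    refine ⟨n, ?_⟩
    rw [← hF2 n, hy]

theorem card_mul {g : G} (hg : g ∈ (M : Subgroup G)) (hg1 : g ≠ 1) :
    Nat.card (centralizer ({g} : Set G)) *
      (centralizer ({g} : Set G)).relIndex (normalizer ((M : Subgroup G) : Set G)) =
      Nat.card (normalizer ((M : Subgroup G) : Set G)) := by
  have h1 := relIndex_mul_relIndex ⊥ (centralizer ({g} : Set G)) (normalizer ((M : Subgroup G) : Set G)) bot_le
    (H.cent g hg hg1)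
  rwa [relIndex_bot_left, relIndex_bot_left] at h1

theorem exists_ne : ∃ g ∈ (M : Subgroup G), g ≠ 1 := by
  by_contra hc
  push Not at hc
  have h1 : (M : Subgroup G) = ⊥ := (eq_bot_iff_forall _).2 hc
  have h2 := H.nine
  rw [h1, card_bot] at h2
  omega

/-- `|N(M)| ≤ 144` -/
theorem card_le : Nat.card (normalizer ((M : Subgroup G) : Set G)) ≤ 144 := by
  obtain ⟨g, hg, hg1⟩ := H.exists_ne
  rw [← H.card_mul hg hg1]
  have h1 : Nat.card (centralizer ({g} : Set G)) ≤ 18 := by
    rcases H.card_cent hg hg1 with h | h <;> omega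
  calc _ ≤ 18 * 8 := Nat.mul_le_mul h1 (H.relIndex_le hg hg1)
    _ = 144 := rfl

theorem nine_dvd : 9 ∣ Nat.card (normalizer ((M : Subgroup G) : Set G)) := by
  rw [← H.nine]
  exact card_dvd_of_le le_normalizer

/-- `|N(M)| = 144` if a Sylow 2-subgroup of `N(M)` has order 16, and `72` if it has order 8 -/
theorem card_of_sylow {k : ℕ} (S : Sylow 2 ↥(normalizer ((M : Subgroup G) : Set G)))
    (hS : Nat.card ↥(S : Subgroup ↥(normalizer ((M : Subgroup G) : Set G))) = k) (hk : k = 8 ∨ k = 16) :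
    Nat.card (normalizer ((M : Subgroup G) : Set G)) = 9 * k := by
  have h1 : k ∣ Nat.card (normalizer ((M : Subgroup G) : Set G)) := by
    rw [← hS]; exact card_subgroup_dvd_card _
  have h2 := H.nine_dvd
  have h3 := H.card_le
  have h4 : 0 < Nat.card (normalizer ((M : Subgroup G) : Set G)) := Nat.card_pos
  rcases hk with rfl | rfl
  · have h5 : ¬ 16 ∣ Nat.card (normalizer ((M : Subgroup G) : Set G)) := by
      intro h
      have h6 := S.card_eq_multiplicity
      rw [hS] at h6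
      have h7 : 2 ^ 4 ∣ Nat.card (normalizer ((M : Subgroup G) : Set G)) := by simpa using h
      rw [Nat.Prime.pow_dvd_iff_le_factorization Nat.prime_two (by omega)] at h7
      have h8 : 2 ^ 4 ≤ 2 ^ (Nat.card (normalizer ((M : Subgroup G) : Set G))).factorization 2 :=
        Nat.pow_le_pow_right (by norm_num) h7
      rw [← h6] at h8
      omega
    omega
  · omega

/-- if `|N(M)| = 72`, all or no centralizers of elements of order 3 have even order -/
theorem all_or_none (hN : Nat.card (normalizer ((M : Subgroup G) : Set G)) = 72) :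
    (∀ g ∈ (M : Subgroup G), g ≠ 1 → Nat.card (centralizer ({g} : Set G)) = 18) ∨
      (∀ g ∈ (M : Subgroup G), g ≠ 1 → Nat.card (centralizer ({g} : Set G)) = 9) := by
  by_cases h : ∃ g ∈ (M : Subgroup G), g ≠ 1 ∧ Nat.card (centralizer ({g} : Set G)) = 9
  · right
    obtain ⟨g, hg, hg1, hg9⟩ := h
    have h8 : (centralizer ({g} : Set G)).relIndex (normalizer ((M : Subgroup G) : Set G)) = 8 := by
      have := H.card_mul hg hg1
      rw [hg9, hN] at this
      omega
    intro x hx hx1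
    obtain ⟨n, hn⟩ := H.conj_of_eight hg hg1 h8 hx hx1
    rw [← hn, card_cent_conj, hg9]
  · left
    push Not at h
    intro g hg hg1
    rcases H.card_cent hg hg1 with h9 | h18
    · exact absurd h9 (h g hg hg1)
    · exact h18

/-- two different involutions of a 2-subgroup of `N(M)`: one of them centralizes an element of `M#` -/
theorem exists_commute {s t : G} (hs : s ∈ normalizer ((M : Subgroup G) : Set G))
    (ht : t ∈ normalizer ((M : Subgroup G) : Set G)) (hs2 : s * s = 1) (ht2 : t * t = 1) (hst : s ≠ t) {k : ℕ}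
    (h2 : (t⁻¹ * s) ^ 2 ^ k = 1) (hs1 : s ≠ 1) (ht1 : t ≠ 1) :
    ∃ g ∈ (M : Subgroup G), g ≠ 1 ∧ ∃ u : G, u * u = 1 ∧ u ≠ 1 ∧ u * g = g * u := by
  by_contra hc
  push Not at hc
  have key : ∀ u : G, u ∈ normalizer ((M : Subgroup G) : Set G) → u * u = 1 → u ≠ 1 →
      ∀ x ∈ (M : Subgroup G), u * x * u⁻¹ = x⁻¹ := by
    intro u hu hu2 hu1 x hx
    have hui : u⁻¹ = u := inv_eq_of_mul_eq_one_left hu2
    have h1 : u * x * u⁻¹ ∈ (M : Subgroup G) := (mem_normalizer_iff.1 hu x).1 hx
    by_contra hne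
    have hy : x * (u * x * u⁻¹) ≠ 1 := fun h => hne (eq_inv_of_mul_eq_one_right h)
    refine hc _ (mul_mem hx h1) hy u hu2 hu1 ?_
    rw [H.comm hx h1]
    calc u * (u * x * u⁻¹ * x) = (u * u) * x * u⁻¹ * x := by group
      _ = x * (u * x) := by rw [hu2, one_mul, hui, mul_assoc]
      _ = x * (u * x * u⁻¹) * u := by group
      _ = u * x * u⁻¹ * x * u := by rw [H.comm hx h1]
  have hc2 : t⁻¹ * s ∈ (M : Subgroup G) := by
    rw [← H.self, mem_centralizer_iff]
    intro x hx
    have e1 := key s hs hs2 hs1 x hx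
    have e2 := key t ht ht2 ht1 x hx
    rw [← e2] at e1
    calc x * (t⁻¹ * s) = t⁻¹ * (t * x * t⁻¹) * s := by group
      _ = t⁻¹ * (s * x * s⁻¹) * s := by rw [e1]
      _ = t⁻¹ * s * x := by group
  have h3 := H.el _ hc2
  have h4 : orderOf (t⁻¹ * s) ∣ 3 := orderOf_dvd_of_pow_eq_one h3
  have h5 : orderOf (t⁻¹ * s) ∣ 2 ^ k := orderOf_dvd_of_pow_eq_one h2
  have h6 : orderOf (t⁻¹ * s) ∣ 1 := by
    have : Nat.Coprime 3 (2 ^ k) := Nat.Coprime.pow_right k (by norm_num)
    rw [← this]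
    exact Nat.dvd_gcd h4 h5
  have h7 : t⁻¹ * s = 1 := orderOf_eq_one_iff.1 (Nat.dvd_one.1 h6)
  exact hst (inv_mul_eq_one.1 h7).symm

/-- if `N(M)` has dihedral Sylow 2-subgroups of order 8, then all elements of order 3 commute with an involution -/
theorem all_even (S : Sylow 2 ↥(normalizer ((M : Subgroup G) : Set G)))
    (e : ↥(S : Subgroup ↥(normalizer ((M : Subgroup G) : Set G))) ≃* DihedralGroup 4) {x : G} (hx : orderOf x = 3) :
    Nat.card (centralizer ({x} : Set G)) = 18 := by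
  have hS : Nat.card ↥(S : Subgroup ↥(normalizer ((M : Subgroup G) : Set G))) = 8 := by
    rw [Nat.card_congr e.toEquiv, DihedralGroup.nat_card]
  have hN := H.card_of_sylow S hS (Or.inl rfl)
  have hcv : ∀ d : DihedralGroup 4, d * d = 1 → ((e.symm d).1.1 : G) * (e.symm d).1.1 = 1 := by
    intro d hd
    have h1 : e.symm d * e.symm d = 1 := by rw [← map_mul, hd, map_one]
    exact congrArg (fun y => (y.1.1 : G)) h1
  have hinj : ∀ d d' : DihedralGroup 4, ((e.symm d).1.1 : G) = (e.symm d').1.1 → d = d' := by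
    intro d d' h
    exact e.symm.injective (Subtype.ext (Subtype.ext h))
  have h1 : ((e.symm 1).1.1 : G) = 1 := by rw [map_one]; rfl
  have hpow : (((e.symm (DihedralGroup.sr 1)).1.1 : G)⁻¹ * (e.symm (DihedralGroup.sr 0)).1.1) ^ 2 ^ 3 = 1 := by
    have h2 : ((e.symm (DihedralGroup.sr 1))⁻¹ * (e.symm (DihedralGroup.sr 0))) ^ 8 = 1 := by
      rw [← hS]
      exact pow_card_eq_one'
    have h3 := congrArg (fun y => (y.1.1 : G)) h2
    exact h3
  obtain ⟨g, hg, hg1, u, hu2, hu1, hug⟩ := H.exists_commute (s := (e.symm (DihedralGroup.sr 0)).1.1)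
    (t := (e.symm (DihedralGroup.sr 1)).1.1) (e.symm (DihedralGroup.sr 0)).1.2
    (e.symm (DihedralGroup.sr 1)).1.2 (hcv _ (by decide)) (hcv _ (by decide))
    (fun h => absurd (hinj _ _ h) (by decide)) hpow (fun h => absurd (hinj _ _ (h.trans h1.symm)) (by decide))
    (fun h => absurd (hinj _ _ (h.trans h1.symm)) (by decide))
  have hne9 : Nat.card (centralizer ({g} : Set G)) ≠ 9 := by
    intro h9
    have h2 : u ∈ centralizer ({g} : Set G) := mem_centralizer_singleton_iff.2 hug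
    have h3 : orderOf u = 2 := orderOf_eq_prime (by rw [pow_two]; exact hu2) hu1
    have h4 : Nat.card (zpowers u) ∣ Nat.card (centralizer ({g} : Set G)) :=
      card_dvd_of_le (zpowers_le.2 h2)
    rw [Nat.card_zpowers, h3, h9] at h4
    omega
  rcases H.all_or_none hN with h | h
  · obtain ⟨a, ha1, ha2⟩ := exists_conj (M := M) hx
    rw [← card_cent_conj x a]
    exact h _ ha1 ha2
  · exact absurd (h g hg hg1) hne9

end Hyp

end Cfsg.Agent.H435.Nine
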