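import Cfsg.Agent.H435.Elts
import Cfsg.Agent.SporadicStructure.M24El
import Cfsg.Prelude.Def_Spor_Mathieu

/-!
# Elements of order 15 in `A₈` and `M₂₃` (helper435)
-/

set_option autoImplicit false

namespace Cfsg.Agent.H435.Small

open Cfsg Cfsg.Agent.H435.Elts

theorem bigCent_of_fifteen {G : Type*} [Group G] {g : G} (h : orderOf g = 15) : BigCent G 5 := by
  refine ⟨g ^ 5, Subgroup.zpowers (g ^ 3), ?_, ?_, ?_⟩
  · rw [orderOf_pow' g (by norm_num), h]; rfl
  · intro y hy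
    obtain ⟨k, rfl⟩ := Subgroup.mem_zpowers_iff.1 hy
    exact (((Commute.refl g).pow_left 3).zpow_left k).pow_right 5
  · rw [Nat.card_zpowers, orderOf_pow' g (by norm_num), h]; rfl

theorem orderOf_fifteen {G : Type*} [Group G] {g : G} (h : g ^ 15 = 1) (h5 : g ^ 5 ≠ 1) (h3 : g ^ 3 ≠ 1) :
    orderOf g = 15 := by
  apply orderOf_eq_of_pow_and_pow_div_prime (by norm_num) h
  intro p hp hd
  have h1 : p ∣ 3 * 5 := hd
  rcases (hp.dvd_mul).1 h1 with h2 | h2
  · rw [(Nat.prime_dvd_prime_iff_eq hp Nat.prime_three).1 h2]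
    exact h5
  · rw [(Nat.prime_dvd_prime_iff_eq hp Nat.prime_five).1 h2]
    exact h3

/-! ### `A₈` -/

/-- `(0 1 2)(3 4 5 6 7)` -/
def p8 : Equiv.Perm (Fin 8) where
  toFun := ![1, 2, 0, 4, 5, 6, 7, 3]
  invFun := ![2, 0, 1, 7, 3, 4, 5, 6]
  left_inv := by decide
  right_inv := by decide

theorem p8_pow : p8 ^ 15 = 1 ∧ p8 ^ 5 ≠ 1 ∧ p8 ^ 3 ≠ 1 := by decide

theorem p8_sign : Equiv.Perm.sign p8 = 1 := by
  have h : Equiv.Perm.sign p8 ^ 15 = 1 := by rw [← map_pow, p8_pow.1, map_one]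
  rcases Int.units_eq_one_or (Equiv.Perm.sign p8) with h1 | h1
  · exact h1
  · rw [h1] at h
    exact absurd h (by decide)

theorem alt8 : BigCent (alternatingGroup (Fin 8)) 5 := by
  refine bigCent_of_fifteen (g := ⟨p8, p8_sign⟩) (orderOf_fifteen ?_ ?_ ?_)
  · exact Subtype.ext p8_pow.1
  · intro h
    exact p8_pow.2.1 (congrArg Subtype.val h)
  · intro h
    exact p8_pow.2.2 (congrArg Subtype.val h)

/-! ### `M₂₃` -/

open Cfsg.Agent.SporadicStructure.M24El Cfsg.Agent.SporadicA.GolayBase Cfsg.Agent.SporadicA.GolayPerm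

/-- a packed permutation of order 15 -/
def P15 : ℕ := 979566201586312212351321845966310731

theorem ok_P15 : ok P15 = true := by decide +kernel

theorem el_pow (k : ℕ) : el P15 ^ k = el (prodW [P15] (List.replicate k 0)) := by
  rw [el_prodW (by intro P hP; rw [List.mem_singleton.1 hP]; exact ok_P15)]
  simp

theorem ok_pow (k : ℕ) : ok (prodW [P15] (List.replicate k 0)) = true :=
  ok_prodW (by intro P hP; rw [List.mem_singleton.1 hP]; exact ok_P15) _

theorem el_pow_ne {Q k : ℕ} (hQ : prodW [P15] (List.replicate k 0) = Q) (h : papp Q 0 ≠ 0) : el P15 ^ k ≠ 1 := by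
  rw [el_pow]
  intro h1
  have h2 := idx_el_smul (ok_pow k) (pt 0)
  rw [h1, one_smul, idx_pt (by norm_num), hQ] at h2
  exact h h2.symm

theorem el_15 : el P15 ^ 15 = 1 := by
  rw [el_pow, ← el_idP]
  have h : prodW [P15] (List.replicate 15 0) = idP := by decide +kernel
  rw [h]

theorem el_5 : el P15 ^ 5 ≠ 1 := el_pow_ne rfl (by decide +kernel)

theorem el_3 : el P15 ^ 3 ≠ 1 := el_pow_ne rfl (by decide +kernel)

theorem el_fix : (el P15 : Equiv.Perm GolayPt) none = none := by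
  have h : (el P15 : Equiv.Perm GolayPt) none = pt (papp P15 (idx none)) := el_smul_pt ok_P15 none
  rw [h]
  decide +kernel

theorem m23 : BigCent Spor.M23 5 := by
  have hm : (el P15 : Equiv.Perm GolayPt) ∈ Spor.M23 := by
    refine Subgroup.mem_inf.2 ⟨(el P15).2, ?_⟩
    rw [MulAction.mem_stabilizer_iff]
    exact el_fix
  have hv : ∀ k : ℕ, (⟨(el P15 : Equiv.Perm GolayPt), hm⟩ : Spor.M23) ^ k = 1 ↔ el P15 ^ k = 1 := by
    intro k
    rw [Subtype.ext_iff, Subtype.ext_iff, SubmonoidClass.coe_pow, SubmonoidClass.coe_pow]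
    rfl
  exact bigCent_of_fifteen (g := ⟨(el P15 : Equiv.Perm GolayPt), hm⟩)
    (orderOf_fifteen ((hv 15).2 el_15) (fun h => el_5 ((hv 5).1 h)) (fun h => el_3 ((hv 3).1 h)))

end Cfsg.Agent.H435.Small
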