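import Cfsg.Agent.H435.Ord
import Cfsg.Agent.H435.Nine
import Cfsg.Agent.H435.Elts
import Cfsg.Agent.H435.Small
import Cfsg.Agent.S0262

/-!
# Simple groups with a self-centralizing TI Sylow 3-subgroup of order 9 (helper435)
-/

set_option autoImplicit false

namespace Cfsg.Agent.H435.Elim

open Cfsg Cfsg.Agent.H435 Cfsg.Agent.H435.Cases Cfsg.Agent.H435.Ord Cfsg.Agent.H435.Nine Cfsg.Agent.H435.Elts Subgroup

/-- a Sylow 3-subgroup of `PSL₂(q)`, `3 ∤ q`, is cyclic -/
theorem psl2_cyclic {F : Type*} [Field F] [Finite F] (h3 : (3 : F) ≠ 0)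
    (P : Sylow 3 (Matrix.ProjectiveSpecialLinearGroup (Fin 2) F)) : IsCyclic P := by
  obtain ⟨p, hp⟩ := CharP.exists F
  have hpp : p.Prime := (CharP.char_is_prime_or_zero F p).resolve_right (CharP.char_ne_zero_of_finite F p)
  haveI : Fact p.Prime := ⟨hpp⟩
  have hp3 : 3 ≠ p := by
    rintro rfl
    exact h3 (CharP.cast_eq_zero F 3)
  obtain ⟨Q⟩ : Nonempty (Sylow 3 (Matrix.SpecialLinearGroup (Fin 2) F)) := inferInstance
  have hQ : IsCyclic ↥(Q : Subgroup (Matrix.SpecialLinearGroup (Fin 2) F)) :=
    S0262.isCyclic_of_isPGroup p 3 (by norm_num) hp3 _ Q.isPGroup'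
  have hs : Function.Surjective (QuotientGroup.mk' (Subgroup.center (Matrix.SpecialLinearGroup (Fin 2) F))) :=
    QuotientGroup.mk'_surjective _
  let R : Sylow 3 (Matrix.ProjectiveSpecialLinearGroup (Fin 2) F) := Q.mapSurjective hs
  have hR : IsCyclic ↥(R : Subgroup (Matrix.ProjectiveSpecialLinearGroup (Fin 2) F)) := by
    have : (R : Subgroup (Matrix.ProjectiveSpecialLinearGroup (Fin 2) F)) =
      (Q : Subgroup _).map (QuotientGroup.mk' (Subgroup.center (Matrix.SpecialLinearGroup (Fin 2) F))) := rfl
    rw [this]
    exact isCyclic_of_surjective _ (MonoidHom.subgroupMap_surjective _ _)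
  exact isCyclic_of_surjective _ (Sylow.equiv R P).surjective

section

variable {G : Type*} [Group G] [Finite G] {M : Sylow 3 G}

theorem big (H : Hyp M) {k : ℕ} (h : BigCent G k) : k ∣ 18 := by
  obtain ⟨x, V, hx, hV, rfl⟩ := h
  exact H.card_dvd hx hV

theorem nine_dvd_card (H : Hyp M) : 9 ∣ Nat.card G := by
  rw [← H.nine]; exact card_subgroup_dvd_card _

theorem not27 (H : Hyp M) : ¬ 27 ∣ Nat.card G := by
  intro h
  have h1 := M.card_eq_multiplicity
  rw [H.nine] at h1
  have h2 : 3 ^ 3 ∣ Nat.card G := h
  rw [Nat.Prime.pow_dvd_iff_le_factorization Nat.prime_three Nat.card_pos.ne'] at h2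
  have h3 : 3 ^ 3 ≤ 3 ^ (Nat.card G).factorization 3 := Nat.pow_le_pow_right (by norm_num) h2
  omega

theorem count (H : Hyp M) {k : ℕ} (hN : Nat.card (normalizer ((M : Subgroup G) : Set G)) = 9 * k) :
    ∃ m : ℕ, Nat.card G = 9 * k * m ∧ m % 9 = 1 :=
  ⟨(normalizer ((M : Subgroup G) : Set G)).index, by rw [← hN, card_mul_index], H.modEq⟩

end

theorem three_ne {F : Type*} [Field F] [Fintype F] (h : ¬ 3 ∣ Fintype.card F) : (3 : F) ≠ 0 := by
  intro h3
  obtain ⟨p, hp⟩ := CharP.exists F
  have hpp : p.Prime := (CharP.char_is_prime_or_zero F p).resolve_right (CharP.char_ne_zero_of_finite F p)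
  have h1 : p ∣ 3 := (CharP.cast_eq_zero_iff F p 3).1 (by exact_mod_cast h3)
  have h2 := (Nat.prime_dvd_prime_iff_eq hpp Nat.prime_three).1 h1
  subst h2
  obtain ⟨n, -, hn⟩ := FiniteField.card F 3
  apply h
  rw [hn]
  exact dvd_pow_self _ n.pos.ne'

theorem not_cyclic {G : Type*} [Group G] [Finite G] {M : Sylow 3 G} (H : Hyp M) :
    ¬ IsCyclic ↥(M : Subgroup G) := by
  intro hc
  obtain ⟨g, hg⟩ := IsCyclic.exists_ofOrder_eq_natCard (α := ↥(M : Subgroup G))
  have h1 : orderOf g ∣ 3 := by
    apply orderOf_dvd_of_pow_eq_one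
    exact Subtype.ext (H.el _ g.2)
  rw [hg, H.nine] at h1
  norm_num at h1

theorem elim {G : Type*} [Group G] [Finite G] [IsSimpleGroup G] (hna : ¬ IsMulCommutative G) {M : Sylow 3 G}
    (H : Hyp M) {k : ℕ} (hk : k = 8 ∨ k = 16)
    (hN : Nat.card (normalizer ((M : Subgroup G) : Set G)) = 9 * k) :
    (k = 16 ∧ Spor.IsoM11 G) ∨
      (k = 8 ∧ ∃ (F : Type) (_ : Field F) (_ : Fintype F), Fintype.card F = 4 ∧
        Nonempty (G ≃* Matrix.ProjectiveSpecialLinearGroup (Fin 3) F)) := by
  have h9 := nine_dvd_card H
  have h27 := not27 H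
  obtain ⟨m, hm, hm9⟩ := count H hN
  rcases Cases.not27 hna h27 (Dvd.dvd.trans (by norm_num) h9) with h | h | h | h | h | h | h | h | h
  · obtain ⟨n, hn, hn8, ⟨e⟩⟩ := h
    have hc := alt_card hn e
    interval_cases n
    · rw [show Nat.factorial 5 = 120 from rfl] at hc
      omega
    · rw [show Nat.factorial 6 = 720 from rfl] at hc
      rcases hk with rfl | rfl <;> omega
    · rw [show Nat.factorial 7 = 5040 from rfl] at hc
      rcases hk with rfl | rfl <;> omega
    · have := big H (Small.alt8.congr e.symm)
      norm_num at this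
  · obtain ⟨F, _, _, n, hn, hn2, ⟨e⟩⟩ := h
    have hq : 1 < Fintype.card F := Fintype.one_lt_card
    by_cases hn4 : 4 ≤ n
    · have h1 := big H ((Elts.psl (F := F) hn4).congr e.symm)
      have h2 := psl_dvd (F := F) hn4
      rw [← Nat.card_congr e.toEquiv] at h2
      generalize Fintype.card F = q at *
      have hle : q ≤ 4 := by
        by_contra hlt
        have := Nat.le_of_dvd (by norm_num) h1
        nlinarith
      interval_cases q
      · norm_num at h1
      · exact absurd (Dvd.dvd.trans (by norm_num) h2) h27
      · norm_num at h1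
    obtain rfl | rfl : n = 2 ∨ n = 3 := by omega
    · by_cases h3 : 3 ∣ Fintype.card F
      · have hc := psl2_card (F := F)
        rw [← Nat.card_congr e.toEquiv] at hc
        have hq4 := hn2 rfl
        clear hn2
        obtain ⟨p, hcp⟩ := CharP.exists F
        obtain ⟨n, hp, hpn⟩ := FiniteField.card F p
        have hp3 : p = 3 := by
          have : 3 ∣ p ^ (n : ℕ) := by rw [← hpn]; exact h3
          exact ((Nat.prime_dvd_prime_iff_eq Nat.prime_three hp).1 (Nat.prime_three.dvd_of_dvd_pow this)).symm
        subst hp3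
        have hn3 : (n : ℕ) < 3 := by
          by_contra hlt
          have h27' : 27 ∣ Fintype.card F := by
            rw [hpn]
            exact pow_dvd_pow 3 (show 3 ≤ (n : ℕ) by omega)
          apply h27
          have h1 : 27 ∣ Nat.gcd 2 (Fintype.card F - 1) * Nat.card G := by
            rw [hc]
            exact h27'.mul_right _
          have h2 : Nat.Coprime 27 (Nat.gcd 2 (Fintype.card F - 1)) :=
            Nat.Coprime.coprime_dvd_right (Nat.gcd_dvd_left _ _) (by norm_num)
          exact h2.dvd_of_dvd_mul_left h1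
        have hn0 := n.pos
        generalize (n : ℕ) = a at *
        interval_cases a
        · omega
        · rw [hpn] at hc
          norm_num at hc
          rcases hk with rfl | rfl <;> omega
      · exfalso
        have hcyc := psl2_cyclic (three_ne h3) (M.mapSurjective (f := e.toMonoidHom) e.surjective)
        apply not_cyclic H
        have e2 : ↥(M : Subgroup G) ≃* ↥((M : Subgroup G).map e.toMonoidHom) :=
          (M : Subgroup G).equivMapOfInjective _ e.injective
        have hcyc' : IsCyclic ↥((M : Subgroup G).map e.toMonoidHom) := hcyc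
        exact isCyclic_of_surjective e2.symm e2.symm.surjective
    · have hc := psl3_card (F := F)
      rw [← Nat.card_congr e.toEquiv] at hc
      have h012 : Fintype.card F % 3 = 0 ∨ Fintype.card F % 3 = 1 ∨ Fintype.card F % 3 = 2 := by omega
      rcases h012 with h0 | h0 | h0
      · exfalso
        generalize Fintype.card F = q at *
        have h27' : 27 ∣ q ^ 3 := by
          obtain ⟨r, rfl⟩ := Nat.dvd_of_mod_eq_zero h0
          exact ⟨r ^ 3, by ring⟩
        have h27' : 27 ∣ Nat.gcd 3 (q - 1) * Nat.card G := by
          rw [hc]; exact h27'.mul_right _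
        have hg : Nat.gcd 3 (q - 1) = 1 := by
          rw [← Nat.coprime_iff_gcd_eq_one, Nat.Prime.coprime_iff_not_dvd Nat.prime_three]
          omega
        rw [hg, one_mul] at h27'
        exact h27 h27'
      · have h1 := big H ((Elts.psl3_one (F := F) (by omega)).congr e.symm)
        have hle := Nat.le_of_dvd (by norm_num) h1
        have hcase : Fintype.card F = 4 ∨ Fintype.card F = 7 ∨ Fintype.card F = 10 ∨ Fintype.card F = 19 := by
          generalize Fintype.card F = q at *
          have : q ≤ 19 := by omega
          interval_cases q <;> omega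
        rcases hcase with h4 | h7 | h10 | h19
        · right
          refine ⟨?_, F, inferInstance, inferInstance, h4, ⟨e⟩⟩
          rw [h4] at hc
          norm_num at hc
          rcases hk with rfl | rfl
          · rfl
          · omega
        · exfalso
          rw [h7] at hc
          norm_num at hc
          rcases hk with rfl | rfl <;> omega
        · exfalso
          rw [h10] at hc
          norm_num at hc
          rcases hk with rfl | rfl <;> omega
        · exfalso
          rw [h19] at hc
          norm_num at hc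
          rcases hk with rfl | rfl <;> omega
      · exfalso
        have h1 := big H ((Elts.psl3_two (F := F) (by omega)).congr e.symm)
        have hle := Nat.le_of_dvd (by norm_num) h1
        have hcase : Fintype.card F = 2 := by
          generalize Fintype.card F = q at *
          have : q ≤ 19 := by omega
          interval_cases q <;> omega
        rw [hcase] at hc
        norm_num at hc
        rcases hk with rfl | rfl <;> omega
  · obtain ⟨F, _, _, hq, ⟨e⟩⟩ := h
    exfalso
    have h1 := big H ((Elts.psp F).congr e.symm)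
    have hc := psp_card (F := F) 2 (by norm_num)
    rw [← Nat.card_congr e.toEquiv] at hc
    have hle := Nat.le_of_dvd (by norm_num) h1
    have h3 : 3 ∣ Fintype.card F := by
      generalize Fintype.card F = q at *
      interval_cases q <;> omega
    have h2 : 27 ∣ Nat.gcd 2 (Fintype.card F - 1) * Nat.card G := by
      rw [hc]
      apply Dvd.dvd.mul_right
      obtain ⟨r, hr⟩ := h3
      exact ⟨3 * r ^ 4, by rw [hr]; ring⟩
    have h4 : Nat.Coprime 27 (Nat.gcd 2 (Fintype.card F - 1)) :=
      Nat.Coprime.coprime_dvd_right (Nat.gcd_dvd_left _ _) (by norm_num)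
    exact h27 (h4.dvd_of_dvd_mul_left h2)
  · obtain ⟨F, _, _, n, q, hF, hn, hn2, ⟨e⟩⟩ := h
    exfalso
    have hq : 2 ≤ q := by
      have : 1 < Fintype.card F := Fintype.one_lt_card
      rw [hF] at this
      by_contra hlt
      have : q ≤ 1 := by omega
      nlinarith
    by_cases hn4 : 4 ≤ n
    · have h1 := big H ((Elts.psu hF hn4).congr e.symm)
      have h2 := psu_dvd hF hn4
      rw [← Nat.card_congr e.toEquiv] at h2
      have hle := Nat.le_of_dvd (by norm_num) h1
      by_cases h3 : 3 ∣ q
      · apply h27
        refine Dvd.dvd.trans ?_ h2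
        apply Dvd.dvd.mul_right
        have h4 : 27 ∣ q ^ 3 := by
          obtain ⟨r, rfl⟩ := h3
          exact ⟨r ^ 3, by ring⟩
        refine h4.trans (pow_dvd_pow _ ?_)
        have : 4 * 3 ≤ n * (n - 1) := Nat.mul_le_mul hn4 (by omega)
        omega
      · have hq2 : q = 2 := by interval_cases q <;> omega
        subst hq2
        apply h27
        refine Dvd.dvd.trans ?_ h2
        apply Dvd.dvd.mul_left
        norm_num
    · obtain rfl : n = 3 := by omega
      have hc := psu3_card hF
      rw [← Nat.card_congr e.toEquiv] at hc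
      have h012 : q % 3 = 0 ∨ q % 3 = 1 ∨ q % 3 = 2 := by omega
      rcases h012 with h0 | h0 | h0
      · have h27' : 27 ∣ q ^ 3 := by
          obtain ⟨r, rfl⟩ := Nat.dvd_of_mod_eq_zero h0
          exact ⟨r ^ 3, by ring⟩
        have h27' : 27 ∣ Nat.gcd 3 (q + 1) * Nat.card G := by
          rw [hc]; exact h27'.mul_right _
        have hg : Nat.gcd 3 (q + 1) = 1 := by
          rw [← Nat.coprime_iff_gcd_eq_one, Nat.Prime.coprime_iff_not_dvd Nat.prime_three]
          omega
        rw [hg, one_mul] at h27'
        exact h27 h27'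
      · have h3F : (3 : F) ≠ 0 := three_ne (by
          rw [hF]
          intro h
          have := Nat.prime_three.dvd_of_dvd_pow h
          omega)
        have h1 := big H ((Elts.psu3_one hF (by omega) h3F).congr e.symm)
        have hle := Nat.le_of_dvd (by norm_num) h1
        have : q ≤ 17 := by omega
        interval_cases q <;> omega
      · have h1 := big H ((Elts.psu3_two hF (by omega)).congr e.symm)
        have hle := Nat.le_of_dvd (by norm_num) h1
        have hcase : q = 5 ∨ q = 8 ∨ q = 17 := by
          have : q ≤ 17 := by omega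
          interval_cases q <;> omega
        rcases hcase with rfl | rfl | rfl <;> norm_num at hc <;> rcases hk with rfl | rfl <;> omega
  · left
    refine ⟨?_, h.1⟩
    rcases hk with rfl | rfl <;> omega
  all_goals exfalso
  · rcases hk with rfl | rfl <;> omega
  · have := big H (Small.m23.congr h.1.some.symm)
    norm_num at this
  · rcases hk with rfl | rfl <;> omega
  · omega

end Cfsg.Agent.H435.Elim
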