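import Cfsg.Agent.H435.Elts

/-!
# In `PSL₃(4)` an element of order 3 commutes with no involution (helper435)
-/

set_option autoImplicit false

namespace Cfsg.Agent.H435.L34

open Cfsg Cfsg.Agent.H435 Cfsg.Agent.H435.Elts Matrix

variable {F : Type*} [Field F] [Fintype F]

theorem exists_x (hF : Fintype.card F = 4) :
    ∃ x : Matrix.ProjectiveSpecialLinearGroup (Fin 3) F, orderOf x = 3 ∧
      ∀ t : Matrix.ProjectiveSpecialLinearGroup (Fin 3) F, t * t = 1 → t * x = x * t → t = 1 := by
  obtain ⟨w, hw, hw1⟩ := exists_omega (F := F) (by rw [hF])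
  have hw' : (1 : F) * w * w ^ 2 = 1 := by linear_combination hw
  have hw0 : w ≠ 0 := by
    rintro rfl
    norm_num at hw
  set D := dg3 1 w (w ^ 2) hw' with hD
  refine ⟨QuotientGroup.mk D, ?_, ?_⟩
  · apply orderOf_mk
    · have h : D ^ 3 = 1 := by
        rw [hD, pow_succ, pow_two, dg3_mul, dg3_mul, ← dg3_one (F := F) (by simp)]
        exact dg3_congr _ _ (by simp) (by linear_combination hw) (by linear_combination (w ^ 3 + 1) * hw)
      rw [h]
      exact one_mem _
    · intro h
      exact hw1 (dg3_center h).1.symm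
  · intro t ht htx
    obtain ⟨T, rfl⟩ := QuotientGroup.mk_surjective t
    have hT2 : T * T ∈ Subgroup.center (Matrix.SpecialLinearGroup (Fin 3) F) :=
      (QuotientGroup.eq_one_iff _).1 ht
    have hz : (D * T)⁻¹ * (T * D) ∈ Subgroup.center (Matrix.SpecialLinearGroup (Fin 3) F) :=
      QuotientGroup.eq.1 htx.symm
    set z := (D * T)⁻¹ * (T * D) with hzd
    have hTD : T * D = D * T * z := by rw [hzd]; group
    have hzc : ∀ A, A * z = z * A := fun A => (Subgroup.mem_center_iff.1 hz A)
    have hTc : ∀ A, A * (T * T) = T * T * A := fun A => (Subgroup.mem_center_iff.1 hT2 A)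
    have hz2 : z * z = 1 := by
      have h1 : T * T * D = D * (T * T) * (z * z) := by
        calc T * T * D = T * (T * D) := by group
          _ = T * (D * T * z) := by rw [hTD]
          _ = T * D * (T * z) := by group
          _ = D * T * z * (T * z) := by rw [hTD]
          _ = D * T * (z * T) * z := by group
          _ = D * (T * T) * (z * z) := by rw [← hzc T]; group
      rw [← hTc D] at h1
      have h2 : D * (T * T) * (z * z) = D * (T * T) * 1 := by rw [← h1, mul_one]
      exact mul_left_cancel h2
    have hz3 : z ^ 3 = 1 := by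
      obtain ⟨r, hr, hrz⟩ := Matrix.SpecialLinearGroup.mem_center_iff.mp hz
      apply Subtype.ext
      rw [Matrix.SpecialLinearGroup.coe_pow, ← hrz, ← map_pow]
      rw [Fintype.card_fin] at hr
      rw [hr, map_one]
      rfl
    have hz1 : z = 1 := by
      calc z = z ^ 3 * (z * z)⁻¹ := by group
        _ = 1 := by rw [hz2, hz3]; simp
    rw [hz1, mul_one] at hTD
    have hM : T.1 * diagonal ![1, w, w ^ 2] = diagonal ![1, w, w ^ 2] * T.1 := congrArg Subtype.val hTD
    have hij : ∀ i j, T.1 i j * (![1, w, w ^ 2] : Fin 3 → F) j = (![1, w, w ^ 2] : Fin 3 → F) i * T.1 i j := by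
      intro i j
      have := congrFun (congrFun hM i) j
      rwa [mul_diagonal, diagonal_mul] at this
    have hd : ∀ i j : Fin 3, i ≠ j → (![1, w, w ^ 2] : Fin 3 → F) j ≠ (![1, w, w ^ 2] : Fin 3 → F) i := by
      have h2 : w ^ 2 ≠ 1 := by
        intro h
        apply hw1
        calc w = w ^ 3 := by rw [pow_succ, h, one_mul]
          _ = 1 := hw
      have h3 : w ^ 2 ≠ w := by
        intro h
        apply hw1
        have : w * w = w * 1 := by rw [mul_one, ← pow_two, h]
        exact mul_left_cancel₀ hw0 this
      intro i j hij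
      fin_cases i <;> fin_cases j <;> first | exact absurd rfl hij | skip
      · exact hw1
      · exact h2
      · exact Ne.symm hw1
      · exact h3
      · exact Ne.symm h2
      · exact Ne.symm h3
    have h0 : ∀ i j : Fin 3, i ≠ j → T.1 i j = 0 := by
      intro i j hne
      by_contra hT
      apply hd i j hne
      have := hij i j
      rw [mul_comm] at this
      exact mul_right_cancel₀ hT this
    have hdet : T.1 0 0 * T.1 1 1 * T.1 2 2 = 1 := by
      have := T.2
      rw [det_fin_three] at this
      rw [h0 0 1 (by decide), h0 0 2 (by decide), h0 1 0 (by decide), h0 1 2 (by decide), h0 2 0 (by decide),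
        h0 2 1 (by decide)] at this
      linear_combination this
    have hTd : T = dg3 (T.1 0 0) (T.1 1 1) (T.1 2 2) hdet := by
      apply Subtype.ext
      ext i j
      change T.1 i j = diagonal _ i j
      by_cases hne : i = j
      · subst hne
        rw [diagonal_apply_eq]
        fin_cases i <;> rfl
      · rw [diagonal_apply_ne _ hne, h0 i j hne]
    have hc : ∀ a : F, a ≠ 0 → a ^ 3 = 1 := by
      intro a ha
      have := FiniteField.pow_card_sub_one_eq_one a ha
      rwa [hF] at this
    have ha : T.1 0 0 ≠ 0 := by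
      intro h; rw [h] at hdet; simp at hdet
    have hb : T.1 1 1 ≠ 0 := by
      intro h; rw [h] at hdet; simp at hdet
    have hc' : T.1 2 2 ≠ 0 := by
      intro h; rw [h] at hdet; simp at hdet
    have hT3 : T ^ 3 = 1 := by
      rw [hTd, pow_succ, pow_two, dg3_mul, dg3_mul, ← dg3_one (F := F) (by simp)]
      refine dg3_congr _ _ ?_ ?_ ?_
      · linear_combination hc _ ha
      · linear_combination hc _ hb
      · linear_combination hc _ hc'
    have ht3 : (QuotientGroup.mk T : Matrix.ProjectiveSpecialLinearGroup (Fin 3) F) ^ 3 = 1 := by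
      rw [← QuotientGroup.mk_pow, hT3]; rfl
    calc (QuotientGroup.mk T : Matrix.ProjectiveSpecialLinearGroup (Fin 3) F) =
        (QuotientGroup.mk T : Matrix.ProjectiveSpecialLinearGroup (Fin 3) F) ^ 3 *
          ((QuotientGroup.mk T : Matrix.ProjectiveSpecialLinearGroup (Fin 3) F) * QuotientGroup.mk T)⁻¹ := by group
      _ = 1 := by rw [ht3, ht, inv_one, mul_one]

end Cfsg.Agent.H435.L34
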